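import Cfsg.Agent.H267.ConjF4.Deg
import Cfsg.Agent.H136.Conj.CC
import Cfsg.Agent.H378.RegFin
import Cfsg.Agent.S1062

/-!
# S4792, row `F₄(q)` (helper267)
-/

set_option autoImplicit false

namespace Cfsg.Agent.H267.ConjF4

open Cfsg Cfsg.Lie Cfsg.Agent.H378.RegFin Cfsg.Agent.BpExc.RowsUntw Cfsg.Agent.BpExc.FamInst

universe u

theorem eval_cyc12 (q : ℤ) : (Polynomial.cyclotomic 12 ℤ).eval q = q ^ 4 - q ^ 2 + 1 := by
  have h := Polynomial.cyclotomic_expand_eq_cyclotomic Nat.prime_two (show 2 ∣ 6 by norm_num) ℤ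
  rw [show 6 * 2 = 12 from rfl, Polynomial.cyclotomic_six] at h
  rw [← h, Polynomial.expand_eval]
  simp
  ring

theorem z2 : ∀ z : ZMod 2, z ^ 4 - z ^ 2 + 1 ≠ 0 := by decide

theorem z3 : ∀ z : ZMod 3, z ^ 2 ≠ -1 := by decide

/-- `q ^ 4 - q ^ 2 + 1`, the order -/
theorem od_of_dvd12 {q s : ℕ} (hs : s.Prime) (hq : 1 ≤ q) (h : s ∣ q ^ 4 - q ^ 2 + 1) : orderOf ((q : ℕ) : ZMod s) = 12 := by
  have : Fact s.Prime := ⟨hs⟩
  have hle : q ^ 2 ≤ q ^ 4 := Nat.pow_le_pow_right hq (by norm_num)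
  have h0 : (q : ZMod s) ^ 4 - (q : ZMod s) ^ 2 + 1 = 0 := by
    have h1 := (ZMod.natCast_eq_zero_iff _ _).2 h
    push_cast [Nat.cast_sub hle] at h1
    exact h1
  set y : ZMod s := (q : ZMod s)
  have h6 : y ^ 6 = -1 := by linear_combination (y ^ 2 + 1) * h0
  have h12 : y ^ 12 = 1 := by linear_combination (y ^ 6 - 1) * h6
  have h2 : (2 : ZMod s) ≠ 0 := by
    intro h2
    have h3 : y ^ 6 = 1 := by linear_combination h6 - h2
    -- characteristic 2
    have hs2 : s = 2 := by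
      have h4 : ((2 : ℕ) : ZMod s) = 0 := by exact_mod_cast h2
      exact (Nat.prime_dvd_prime_iff_eq hs Nat.prime_two).1 ((ZMod.natCast_eq_zero_iff _ _).1 h4)
    subst hs2
    exact z2 y h0
  have hd : orderOf y ∣ 12 := orderOf_dvd_of_pow_eq_one h12
  have hn6 : ¬ orderOf y ∣ 6 := by
    intro h3
    have h4 := orderOf_dvd_iff_pow_eq_one.1 h3
    rw [h6] at h4
    apply h2
    linear_combination -h4
  have hn4 : ¬ orderOf y ∣ 4 := by
    intro h3
    have h4 := orderOf_dvd_iff_pow_eq_one.1 h3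
    have h5 : y ^ 2 = -1 := by linear_combination h6 - y ^ 2 * h4
    have h7 : (3 : ZMod s) = 0 := by linear_combination h0 - h4 + h5
    have hs3 : s = 3 := by
      have h4 : ((3 : ℕ) : ZMod s) = 0 := by exact_mod_cast h7
      exact (Nat.prime_dvd_prime_iff_eq hs Nat.prime_three).1 ((ZMod.natCast_eq_zero_iff _ _).1 h4)
    subst hs3
    exact z3 y h5
  have h13 : orderOf y ≤ 12 := Nat.le_of_dvd (by norm_num) hd
  interval_cases h14 : orderOf y <;> omega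

theorem row_chevF4 (F : Type u) [Field F] [Fintype F] : H430.Conj.Row ↥(chevF4.group F) := by
  classical
  obtain ⟨hsimp, hna⟩ := Cfsg.Agent.S1054.result (F := F) chevF4 (by simp)
  set q := Nat.card F with hq
  have hqF : Fintype.card F = q := by rw [hq, Nat.card_eq_fintype_card]
  have hq2 : 2 ≤ q := by rw [← hqF]; exact Fintype.one_lt_card
  have hle : q ^ 2 ≤ q ^ 4 := Nat.pow_le_pow_right (by omega) (by norm_num)
  have h4 : 4 ≤ q ^ 2 := by nlinarith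
  have hlt : q ^ 2 < q ^ 4 := Nat.pow_lt_pow_right (by omega) (by norm_num)
  -- a prime divisor of `q ^ 4 - q ^ 2 + 1`
  obtain ⟨s, hs, hsd⟩ := Nat.exists_prime_and_dvd (n := q ^ 4 - q ^ 2 + 1) (by omega)
  have hcard : q ^ 4 - q ^ 2 + 1 ∣ Nat.card ↥(chevF4.group F) := by
    rw [S1062.result (F := F) hqF]
    refine Dvd.dvd.mul_left ?_ _
    have h12 : 1 ≤ q ^ 12 := Nat.one_le_pow _ _ (by omega)
    refine ⟨(q ^ 2 + 1) * (q ^ 6 - 1), ?_⟩
    have h6 : 1 ≤ q ^ 6 := Nat.one_le_pow _ _ (by omega)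
    zify [h12, h6, hle]
    ring
  have hfs : Fact s.Prime := ⟨hs⟩
  obtain ⟨x, hx⟩ := exists_prime_orderOf_dvd_card' s (hsd.trans hcard)
  have key : ∀ (y : ↥(chevF4.group F)) (r : ℕ), r.Prime → r ∣ q ^ 4 - q ^ 2 + 1 → orderOf y = r →
      (∀ a b : ↥(chevF4.group F), Commute a y → Commute b y → Commute a b) ∧
      Nat.card ↥(Subgroup.centralizer {y}) ∣ q ^ 4 - q ^ 2 + 1 := by
    intro y r hr hrd hy
    have h := cent_od f4T inv_F4 one_ne_zero (F := F) (x := y) (m := 12) hr hy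
      (od_of_dvd12 hr (by omega) hrd) (by decide) (by norm_num)
    refine ⟨h.1, ?_⟩
    have h5 := h.2
    rw [eval_cyc12] at h5
    have e : (((Nat.card F : ℕ) : ℤ) ^ 4 - ((Nat.card F : ℕ) : ℤ) ^ 2 + 1).natAbs = q ^ 4 - q ^ 2 + 1 := by
      have : (((Nat.card F : ℕ) : ℤ) ^ 4 - ((Nat.card F : ℕ) : ℤ) ^ 2 + 1) = ((q ^ 4 - q ^ 2 + 1 : ℕ) : ℤ) := by
        push_cast [Nat.cast_sub hle]
        ring
      rw [this, Int.natAbs_natCast]
    rwa [e] at h5
  have hx1 : x ≠ 1 := fun h => by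
    rw [h, orderOf_one] at hx
    exact hs.one_lt.ne hx
  obtain ⟨-, hC⟩ := key x s hs hsd hx
  have hG : ¬ (Nat.card ↥(chevF4.group F)).Prime := fun hp => hna (by
    have h1 : Fact (Nat.card ↥(chevF4.group F)).Prime := ⟨hp⟩
    have h2 : IsCyclic ↥(chevF4.group F) := isCyclic_of_prime_card (p := Nat.card ↥(chevF4.group F)) rfl
    exact IsCyclic.isMulCommutative)
  refine H136.Conj.row_of_minDeg hG hx1 ?_ (Nat.le_of_dvd (by omega) hC) (d := q ^ 4 * (q ^ 2 - 1)) ?_ ?_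
  · intro y hy hxy a b ha hb
    have hyC : y ∈ Subgroup.centralizer ({x} : Set ↥(chevF4.group F)) := by
      rw [Subgroup.mem_centralizer_singleton_iff]
      exact hxy.symm
    have h1 : orderOf y ∣ Nat.card ↥(Subgroup.centralizer ({x} : Set ↥(chevF4.group F))) := by
      have h2 := orderOf_dvd_natCard (⟨y, hyC⟩ : ↥(Subgroup.centralizer ({x} : Set ↥(chevF4.group F))))
      rwa [Subgroup.orderOf_mk] at h2
    exact (key y _ hy (h1.trans hC) rfl).1 a b ha hb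
  · intro k ρ hρ hk
    have := (minDeg_F4 F).irr k ρ hρ hk
    rwa [hqF] at this
  · -- the inequality
    obtain ⟨c, hc⟩ : ∃ c, q ^ 2 = c + 1 := ⟨q ^ 2 - 1, by omega⟩
    have hc3 : 3 ≤ c := by omega
    have e4 : q ^ 4 = (c + 1) ^ 2 := by rw [← hc]; ring
    rw [e4, hc]
    have e1 : (c + 1) ^ 2 - (c + 1) + 1 = c ^ 2 + c + 1 := by
      have : (c + 1) ^ 2 = c ^ 2 + c + (c + 1) := by ring
      omega
    rw [e1, Nat.add_sub_cancel, Nat.add_sub_cancel]
    nlinarith [Nat.zero_le (c ^ 5), Nat.zero_le (c ^ 4), Nat.zero_le (c ^ 3), Nat.zero_le (c ^ 2),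
      mul_le_mul hc3 (le_refl (c ^ 2)) (Nat.zero_le _) (Nat.zero_le _),
      Nat.mul_le_mul hc3 (le_refl (c ^ 3)), Nat.mul_le_mul hc3 (le_refl (c ^ 4))]

/-- **S4792, row `F₄(q)`** -/
theorem row_f4 {S : Type*} [Group S] [Finite S] (_hs : IsSimpleGroup S) (h : Lie.IsoF4 S) : H430.Conj.Row S := by
  obtain ⟨F, _, _, ⟨e⟩⟩ := h
  exact H430.Conj.Row.of_equiv e.symm (row_chevF4 F)

end Cfsg.Agent.H267.ConjF4
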